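import Cfsg.Agent.RankOne.Semilinear

/-!
A subgroup of the two-point stabiliser in which every non-trivial element centralises exactly one
involution of the point stabiliser acts on the involutions as field automorphisms: it is trivial, or
there are `2 ^ e - 1` involutions with `e` prime, it has order at most `e`, and a subgroup of index
`e` of the point stabiliser contains all elements centralising several involutions.
-/

set_option autoImplicit false
set_option linter.style.haveILetI false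

open MulAction

namespace CfsgLib.RankOneSetup

section Field

variable {F : Type*} [Field F] [Fintype F] [CharP F 2]

/-- An automorphism of prime order of a finite field of characteristic two fixing only `0` and `1`
has order the degree of the field, and generates all automorphisms. -/
theorem fieldAut_of_fixed {σ : F ≃+* F} (hr : (orderOf σ).Prime)
    (hfix : ∀ x : F, σ x = x → x = 0 ∨ x = 1) :
    Nat.card (F ≃+* F) = orderOf σ ∧ Nat.card F = 2 ^ orderOf σ := by
  classical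
  haveI : Fact (Nat.Prime 2) := ⟨Nat.prime_two⟩
  let hA : Algebra (ZMod 2) F := ZMod.algebra F 2
  let φ : (F ≃+* F) ≃* (F ≃ₐ[ZMod 2] F) :=
    { toFun := fun τ => AlgEquiv.ofRingEquiv (f := τ) (fun x => DFunLike.congr_fun
        (Subsingleton.elim ((τ : F →+* F).comp (algebraMap (ZMod 2) F)) (algebraMap (ZMod 2) F)) x)
      invFun := fun τ => τ.toRingEquiv
      left_inv := fun τ => by ext; rfl
      right_inv := fun τ => by ext; rfl
      map_mul' := fun τ τ' => by ext; rfl }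
  set S := Subgroup.zpowers (φ σ) with hS
  have hbot : IntermediateField.fixedField S = (⊥ : IntermediateField (ZMod 2) F) := by
    rw [eq_bot_iff]
    intro x hx
    have h := hx ⟨φ σ, Subgroup.mem_zpowers _⟩
    have hx' : σ x = x := h
    rcases hfix x hx' with rfl | rfl
    · exact zero_mem _
    · exact one_mem _
  have h1 := IntermediateField.finrank_fixedField_eq_card S
  rw [hbot, IntermediateField.finrank_bot'] at h1
  have hord : Nat.card S = orderOf σ := by
    rw [hS, Nat.card_zpowers]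
    exact orderOf_injective φ.toMonoidHom φ.injective σ
  constructor
  · rw [Nat.card_congr φ.toEquiv, IsGalois.card_aut_eq_finrank, h1, hord]
  · rw [Nat.card_eq_fintype_card, Module.card_eq_pow_finrank (K := ZMod 2) (V := F), h1, hord,
      ZMod.card]

/-- For an automorphism fixing only `0` and `1`, `x ↦ x / σ x` is a bijection of `Fˣ`. -/
theorem existsUnique_semilinear_fixed {σ : F ≃+* F} (hfix : ∀ x : F, σ x = x → x = 0 ∨ x = 1)
    {c : F} (hc : c ≠ 0) : ∃! x : F, x ≠ 0 ∧ c * σ x = x := by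
  have hinj : Function.Injective (fun x : Fˣ => x / Units.map (σ : F →* F) x) := by
    intro x y hxy
    have h : Units.map (σ : F →* F) (x / y) = x / y := by
      rw [map_div]
      simp only [div_eq_div_iff_mul_eq_mul] at hxy ⊢
      rw [mul_comm _ y, ← hxy, mul_comm]
    rcases hfix ((x / y : Fˣ) : F) (congrArg Units.val h) with h0 | h1
    · exact absurd h0 (Units.ne_zero _)
    · exact div_eq_one.mp (Units.ext h1)
  obtain ⟨x, hx⟩ := (Finite.injective_iff_surjective.mp hinj) (Units.mk0 c hc)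
  have hx' : (x : F) / σ x = c := by
    have := congrArg Units.val hx
    simpa using this
  have hσ : ∀ y : F, y ≠ 0 → σ y ≠ 0 := fun y hy h => hy (by simpa using h)
  refine ⟨x, ⟨x.ne_zero, by rw [← hx', div_mul_cancel₀ _ (hσ _ x.ne_zero)]⟩, ?_⟩
  rintro y ⟨hy, hyc⟩
  have hy' : (fun x : Fˣ => x / Units.map (σ : F →* F) x) (Units.mk0 y hy) = Units.mk0 c hc := by
    apply Units.ext
    simp only [Units.val_div_eq_div_val, Units.val_mk0]
    show y / σ y = c
    rw [eq_comm, eq_div_iff (hσ _ hy), hyc]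
  have := hinj (hy'.trans hx.symm)
  exact congrArg Units.val this

end Field

variable {G Ω : Type*} [Group G] [Finite G] [MulAction G Ω] [FaithfulSMul G Ω] {a : Ω} {t : G}
  {Q : Subgroup G}

/-- **Field automorphisms.** -/
theorem field_part (hS : Cfsg.IsRankOneSetup G Ω a t Q)
    (h2 : ∃ x y : G, x ≠ 1 ∧ y ≠ 1 ∧ x ≠ y ∧ x * x = 1 ∧ y * y = 1 ∧ x * y = y * x)
    (hsol : Group.IsSolvable ↥(stabilizer G a ⊓ stabilizer G (t • a))) (L : Subgroup G)
    (hLD : L ≤ stabilizer G a ⊓ stabilizer G (t • a))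
    (hL : ∀ d ∈ L, d ≠ 1 → ∃! s : G, (s • a = a ∧ s ≠ 1 ∧ s * s = 1) ∧ s * d = d * s) :
    L = ⊥ ∨ ∃ e : ℕ, e.Prime ∧ Odd e ∧ Nat.card L ≤ e ∧
      Nat.card {s : stabilizer G a // s ≠ 1 ∧ s * s = 1} + 1 = 2 ^ e ∧
      ∃ A : Subgroup (stabilizer G a), A.index = e ∧
        (∀ s : stabilizer G a, s ≠ 1 → s * s = 1 → s ∈ A) ∧
        ∀ h : stabilizer G a, h ∉ A → ∃! s : stabilizer G a, s ≠ 1 ∧ s * s = 1 ∧ s * h = h * s := by
  classical
  rcases eq_or_ne L ⊥ with hbot | hne
  · exact Or.inl hbot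
  refine Or.inr ?_
  obtain ⟨F, iF, iT, iC, ω, hadd, hinj, hE, -, hsl⟩ := exists_semilinear hS h2 hsol
  have hω0 : ω 0 = 1 := by
    have := hadd 0 0
    rwa [add_zero, left_eq_mul] at this
  have hcen := (Cfsg.Agent.S1130.result hS h2).1
  haveI : Finite (F ≃+* F) := Finite.of_injective _ (DFunLike.coe_injective (F := F ≃+* F))
  -- every element of the point stabiliser is semilinear
  have hsl' : ∀ h : stabilizer G a, ∃ p : F × (F ≃+* F), p.1 ≠ 0 ∧
      ∀ x, (h : G) * ω x * (h : G)⁻¹ = ω (p.1 * p.2 x) := by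
    intro h
    obtain ⟨q, hq, d, hd, hqd⟩ := exists_QD hS (mem_stabilizer_iff.mp h.2)
    obtain ⟨c, σ, hc, hcσ⟩ := hsl d hd
    refine ⟨(c, σ), hc, fun x => ?_⟩
    rw [hqd, show q * d * ω x * (q * d)⁻¹ = q * (d * ω x * d⁻¹) * q⁻¹ by group, hcσ]
    rcases (hE (ω (c * σ x))).mpr ⟨_, rfl⟩ with hi | hi
    · rw [← (hcen _ hi).2 q hq, mul_inv_cancel_right]
    · rw [hi]; group
  choose f hf hfω using hsl'
  have uniq : ∀ (c c' : F) (τ τ' : F ≃+* F), c ≠ 0 →
      (∀ x, c * τ x = c' * τ' x) → c = c' ∧ τ = τ' := by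
    intro c c' τ τ' hc h
    have h1 : c = c' := by simpa using h 1
    subst h1
    exact ⟨rfl, RingEquiv.ext fun x => mul_left_cancel₀ hc (h x)⟩
  have hmul : ∀ h h' : stabilizer G a, (f (h * h')).2 = (f h).2 * (f h').2 := by
    intro h h'
    refine (uniq (f (h * h')).1 ((f h).1 * (f h).2 (f h').1) _ _ (hf (h * h')) fun x => hinj ?_).2
    rw [← hfω, RingAut.mul_apply,
      show (f h).1 * (f h).2 (f h').1 * (f h).2 ((f h').2 x) = (f h).1 * (f h).2 ((f h').1 * (f h').2 x) by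
        rw [map_mul]; ring, ← hfω, ← hfω]
    simp [mul_assoc]
  let ψ : stabilizer G a →* (F ≃+* F) := MonoidHom.mk' (fun h => (f h).2) hmul
  -- commuting with an involution is a fixed-point equation
  have hfixeq : ∀ (h : stabilizer G a) (x : F),
      ω x * (h : G) = (h : G) * ω x ↔ (f h).1 * (f h).2 x = x := by
    intro h x
    rw [eq_comm, ← mul_inv_eq_iff_eq_mul, hfω]
    exact hinj.eq_iff
  have hmemI : ∀ x : F, x ≠ 0 → ω x • a = a ∧ ω x ≠ 1 ∧ ω x * ω x = 1 := by
    intro x hx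
    have h1 : ω x ≠ 1 := fun h => hx (hinj (h.trans hω0.symm))
    rcases (hE (ω x)).mpr ⟨x, rfl⟩ with hi | hi
    · exact ⟨hi.1, h1, hi.2.2⟩
    · exact absurd hi h1
  have hpre : ∀ s : G, s • a = a → s ≠ 1 → s * s = 1 → ∃ x : F, x ≠ 0 ∧ ω x = s := by
    intro s hsa hs1 hs2
    obtain ⟨x, hx⟩ := (hE s).mp (Or.inl ⟨hsa, hs1, hs2⟩)
    exact ⟨x, fun h => hs1 (by rw [← hx, h, hω0]), hx⟩
  -- a non-trivial element of `L` has a fixed field of order two
  have hLfix : ∀ h : stabilizer G a, (h : G) ∈ L → h ≠ 1 →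
      ∀ x : F, (f h).2 x = x → x = 0 ∨ x = 1 := by
    intro h hhL hh1 x hx
    obtain ⟨s, ⟨⟨hsa, hs1, hs2⟩, hsc⟩, huniq⟩ := hL h hhL (fun e => hh1 (Subtype.ext e))
    obtain ⟨x₀, hx₀, rfl⟩ := hpre s hsa hs1 hs2
    have hfx₀ := (hfixeq h x₀).mp hsc
    by_contra! hc
    have heq : ω (x₀ * x) = ω x₀ := huniq _ ⟨hmemI _ (mul_ne_zero hx₀ hc.1), (hfixeq h _).mpr (by
      rw [map_mul, hx, ← mul_assoc, hfx₀])⟩
    exact hc.2 (mul_eq_left₀ hx₀ |>.mp (hinj heq))
  obtain ⟨d, hdL, hd1⟩ := (Subgroup.ne_bot_iff_exists_ne_one.mp hne) |> fun ⟨x, hx⟩ =>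
    (⟨x.1, x.2, fun h => hx (Subtype.ext h)⟩ : ∃ d ∈ L, d ≠ 1)
  have hLinj : ∀ h : stabilizer G a, (h : G) ∈ L → ψ h = 1 → h = 1 := by
    intro h hhL hψ
    by_contra hh1
    have h01 : ∀ x : F, x = 0 ∨ x = 1 := fun x => hLfix h hhL hh1 x (by
      rw [show (f h).2 = 1 from hψ]; rfl)
    obtain ⟨x, y, hx1, hy1, hxy, hx2, hy2, hc⟩ := h2
    obtain ⟨p, hp⟩ := exists_fix_involution hS hx2
    haveI := pretransitive hS
    obtain ⟨g, hg⟩ := exists_smul_eq G p a
    have hyp : y • p = p := involution_fix_unique hS hx1 hx2 (by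
      rw [smul_smul, hc, mul_smul, hp]) hp
    have hconj : ∀ z : G, z ≠ 1 → z * z = 1 → z • p = p → ω 1 = g * z * g⁻¹ := by
      intro z hz1 hz2 hzp
      obtain ⟨w, hw, hwe⟩ := hpre (g * z * g⁻¹) (by rw [← hg]; exact conj_fix hS hzp)
        (fun e => hz1 (conj_eq_one_iff.mp e))
        (by rw [show g * z * g⁻¹ * (g * z * g⁻¹) = g * (z * z) * g⁻¹ by group, hz2]; group)
      rw [← hwe, (h01 w).resolve_left hw]
    exact hxy (mul_left_cancel (mul_right_cancel ((hconj x hx1 hx2 hp).symm.trans (hconj y hy1 hy2 hyp))))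
  let d' : stabilizer G a := ⟨d, (hLD hdL).1⟩
  have hd'1 : d' ≠ 1 := fun h => hd1 (congrArg Subtype.val h)
  have hψd : ψ d' ≠ 1 := fun h => hd'1 (hLinj d' hdL h)
  -- a power of prime order
  obtain ⟨r, hr, hrd⟩ := Nat.exists_prime_and_dvd (fun h : orderOf (ψ d') = 1 =>
    hψd (orderOf_eq_one_iff.mp h))
  set σ := ψ (d' ^ (orderOf (ψ d') / r)) with hσ
  have hσord : orderOf σ = r := by
    rw [hσ, map_pow, orderOf_pow_orderOf_div (orderOf_pos _).ne' hrd]
  have hd'L : ((d' ^ (orderOf (ψ d') / r) : stabilizer G a) : G) ∈ L := by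
    rw [SubmonoidClass.coe_pow]; exact L.pow_mem hdL _
  have hσfix : ∀ x : F, σ x = x → x = 0 ∨ x = 1 := hLfix _ hd'L fun h => hr.ne_one (by
    rw [← hσord, hσ, h, map_one, orderOf_one])
  obtain ⟨hcardAut, hcardF⟩ := fieldAut_of_fixed (hσord ▸ hr) hσfix
  rw [hσord] at hcardAut hcardF
  haveI : Fact (Nat.card (F ≃+* F)).Prime := ⟨hcardAut ▸ hr⟩
  haveI := Fact.mk hr
  refine ⟨r, hr, ?_, ?_, ?_, ψ.ker, ?_, ?_, ?_⟩
  · refine hS.odd_card.of_dvd_nat ?_
    rw [← hσord]
    refine (orderOf_map_dvd ψ _).trans ((orderOf_pow_dvd _).trans ?_)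
    rw [← Subgroup.orderOf_coe, ← Subgroup.orderOf_mk d (hLD hdL)]
    exact orderOf_dvd_natCard _
  · rw [← hcardAut]
    refine Nat.card_le_card_of_injective (fun l : L => ψ ⟨l, (hLD l.2).1⟩) fun l l' hll => ?_
    have h1 : ψ (⟨l, (hLD l.2).1⟩⁻¹ * ⟨l', (hLD l'.2).1⟩) = 1 := by
      simp only at hll
      rw [map_mul, map_inv, hll, inv_mul_cancel]
    have h2' := hLinj _ (L.mul_mem (L.inv_mem l.2) l'.2) h1
    exact Subtype.ext (inv_mul_eq_one.mp (congrArg Subtype.val h2'))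
  · rw [← hcardF]
    have e1 : Nat.card {s : stabilizer G a // s ≠ 1 ∧ s * s = 1} = Nat.card {x : F // x ≠ 0} := by
      refine (Nat.card_congr (Equiv.ofBijective (fun x : {x : F // x ≠ 0} =>
        (⟨⟨ω x, (hmemI x x.2).1⟩, fun h => (hmemI x x.2).2.1 (congrArg Subtype.val h),
          Subtype.ext (hmemI x x.2).2.2⟩ : {s : stabilizer G a // s ≠ 1 ∧ s * s = 1})) ⟨?_, ?_⟩)).symm
      · intro x y hxy
        exact Subtype.ext (hinj (congrArg (fun s : {s : stabilizer G a // s ≠ 1 ∧ s * s = 1} =>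
          (s.1 : G)) hxy))
      · rintro ⟨⟨s, hsa⟩, hs1, hs2⟩
        obtain ⟨x, hx, rfl⟩ := hpre s hsa (fun h => hs1 (Subtype.ext h)) (congrArg Subtype.val hs2)
        exact ⟨⟨x, hx⟩, rfl⟩
    rw [e1, ← Finite.card_option, Nat.card_congr (Equiv.optionSubtypeNe (0 : F))]
  · rw [Subgroup.index_ker]
    have : ψ.range = ⊤ := by
      refine (Subgroup.eq_bot_or_eq_top_of_prime_card (G := F ≃+* F) ψ.range).resolve_left fun h => ?_
      exact hψd (Subgroup.mem_bot.mp (h ▸ ⟨d', rfl⟩))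
    rw [this, Subgroup.card_top, hcardAut]
  · intro s hs1 hs2
    have hs : orderOf (ψ s) ∣ 2 :=
      (orderOf_map_dvd ψ s).trans (orderOf_dvd_of_pow_eq_one (by rw [pow_two, hs2]))
    have hs' : orderOf (ψ s) ∣ r := hcardAut ▸ orderOf_dvd_natCard _
    have hodd : Odd r := by
      refine hS.odd_card.of_dvd_nat ?_
      rw [← hσord]
      refine (orderOf_map_dvd ψ _).trans ((orderOf_pow_dvd _).trans ?_)
      rw [← Subgroup.orderOf_coe, ← Subgroup.orderOf_mk d (hLD hdL)]
      exact orderOf_dvd_natCard _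
    rw [MonoidHom.mem_ker, ← orderOf_eq_one_iff]
    exact Nat.dvd_one.mp (by
      have := Nat.dvd_gcd hs hs'
      rwa [(Nat.coprime_two_left.mpr hodd).gcd_eq_one] at this)
  · intro h hh
    have hfix : ∀ x : F, (f h).2 x = x → x = 0 ∨ x = 1 := by
      intro x hx
      refine hσfix x ?_
      obtain ⟨i, hi⟩ := mem_powers_iff_mem_zpowers.mpr (mem_zpowers_of_prime_card hcardAut
        (g := ψ h) (g' := σ) (fun e => hh (MonoidHom.mem_ker.mpr e)))
      rw [← hi]
      have : ∀ j : ℕ, ((ψ h) ^ j) x = x := by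
        intro j
        induction j with
        | zero => rfl
        | succ j ih => rw [pow_succ, RingAut.mul_apply, show ψ h x = x from hx, ih]
      exact this i
    obtain ⟨x, ⟨hx, hxe⟩, hxu⟩ := existsUnique_semilinear_fixed hfix (hf h)
    refine ⟨⟨ω x, (hmemI x hx).1⟩, ⟨fun e => (hmemI x hx).2.1 (congrArg Subtype.val e),
      Subtype.ext (hmemI x hx).2.2, Subtype.ext ((hfixeq h x).mpr hxe)⟩, ?_⟩
    rintro ⟨s, hsa⟩ ⟨hs1, hs2, hsc⟩
    obtain ⟨y, hy, rfl⟩ := hpre s hsa (fun e => hs1 (Subtype.ext e)) (congrArg Subtype.val hs2)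
    have := hxu y ⟨hy, (hfixeq h y).mp (congrArg Subtype.val hsc)⟩
    exact Subtype.ext (congrArg ω this)

end CfsgLib.RankOneSetup
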